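import Cfsg.Agent.Lib.GLn.PSLHalfTorus
import Cfsg.Agent.Lib.UnitaryConj
import Cfsg.Agent.Lib.Classical.Unitary
import Cfsg.Agent.Lib.Zsigmondy
import Mathlib.Tactic

/-!
# Elements of order `q^h + (-1)^h` in `PSU_{2h}(q)`
-/

set_option autoImplicit false

namespace Cfsg.Agent.Lib.UnitaryHalf

open Matrix Polynomial Cfsg.Agent.Lib.UnitaryConj

/-- `1 + (-q) + ... + (-q)^(h-1)`. -/
def T (q h : ℕ) : ℤ := ∑ i ∈ Finset.range h, (-(q : ℤ)) ^ i

theorem T_mul (q h : ℕ) : T q h * (-(q : ℤ) - 1) = (-(q : ℤ)) ^ h - 1 := geom_sum_mul _ h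

theorem T_two (q h : ℕ) : T q (2 * h) = ((-(q : ℤ)) ^ h + 1) * T q h := by
  rw [T, T, two_mul, Finset.sum_range_add, add_mul, one_mul, Finset.mul_sum, add_comm]
  simp [pow_add]

/-- The target order. -/
def N (q h : ℕ) : ℕ := ((-(q : ℤ)) ^ h + 1).natAbs

theorem N_eq {q : ℕ} (hq : 1 ≤ q) (h : ℕ) : N q h = if Even h then q ^ h + 1 else q ^ h - 1 := by
  have h1 : 1 ≤ q ^ h := Nat.one_le_pow _ _ hq
  split_ifs with he
  · rw [N, he.neg_pow]
    exact_mod_cast rfl
  · rw [N, (Nat.not_even_iff_odd.mp he).neg_pow,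
      show (-((q : ℤ) ^ h) + 1) = -(((q ^ h - 1 : ℕ)) : ℤ) by push_cast [Nat.cast_sub h1]; ring,
      Int.natAbs_neg, Int.natAbs_natCast]

theorem T_two_natAbs (q h : ℕ) : (T q (2 * h)).natAbs = N q h * (T q h).natAbs := by
  rw [T_two, Int.natAbs_mul, N]

theorem natAbs_T_two_mul {q : ℕ} (hq : 1 ≤ q) (h : ℕ) :
    (T q (2 * h)).natAbs * (q + 1) = q ^ (2 * h) - 1 := by
  have e := congrArg Int.natAbs (T_mul q (2 * h))
  rw [Int.natAbs_mul, (even_two_mul h).neg_pow] at e
  have h1 : 1 ≤ q ^ (2 * h) := Nat.one_le_pow _ _ hq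
  rw [show (-(q : ℤ) - 1) = -(((q + 1 : ℕ)) : ℤ) by push_cast; ring, Int.natAbs_neg, Int.natAbs_natCast,
    show ((q : ℤ) ^ (2 * h) - 1) = ((q ^ (2 * h) - 1 : ℕ) : ℤ) by push_cast [Nat.cast_sub h1]; ring,
    Int.natAbs_natCast] at e
  exact e

theorem dvd_T {q d : ℕ} (hd : d ∣ q + 1) (h : ℕ) : d ∣ (T q h).natAbs ↔ d ∣ h := by
  rw [← Int.natCast_dvd, ← ZMod.intCast_zmod_eq_zero_iff_dvd, ← ZMod.natCast_eq_zero_iff, T]
  have h1 : (-(q : ZMod d)) = 1 := by
    have := (ZMod.natCast_eq_zero_iff (q + 1) d).mpr hd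
    push_cast at this
    linear_combination -this
  push_cast
  rw [h1]
  simp

variable {F : Type*} [Field F] [Fintype F] {q : ℕ}

theorem mat_pow_coe {n : ℕ} (Y : Cfsg.SU n F q) (m : ℕ) :
    (((Y ^ m : Cfsg.SU n F q) : SpecialLinearGroup (Fin n) F) : Matrix (Fin n) (Fin n) F) =
      ((Y : SpecialLinearGroup (Fin n) F) : Matrix (Fin n) (Fin n) F) ^ m := by
  rw [SubmonoidClass.coe_pow]
  exact Matrix.SpecialLinearGroup.coe_pow (n := Fin n) (R := F) _ m

theorem mem_center_of_scalar {n : ℕ} (Y : Cfsg.SU n F q) (c : F)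
    (hc : ((Y : SpecialLinearGroup (Fin n) F) : Matrix (Fin n) (Fin n) F) = c • 1) :
    Y ∈ Subgroup.center (Cfsg.SU n F q) :=
  Subgroup.mem_center_iff.mpr fun Z => Subtype.ext (Subtype.ext (by
    show ((Z : SpecialLinearGroup (Fin n) F) : Matrix (Fin n) (Fin n) F) * _ = _ * _
    rw [hc, mul_smul_comm, smul_mul_assoc, mul_one, one_mul]))

theorem gu_rel (hF : Fintype.card F = q ^ 2) {n : ℕ} (Y : Cfsg.SU n F q) :
    (((Y : SpecialLinearGroup (Fin n) F) : Matrix (Fin n) (Fin n) F).map (qHom hF))ᵀ *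
      ((Y : SpecialLinearGroup (Fin n) F) : Matrix (Fin n) (Fin n) F) = 1 := by
  have hg : SpecialLinearGroup.toGL (Y : SpecialLinearGroup (Fin n) F) ∈ Cfsg.GU n F q :=
    Cfsg.Agent.Lib.Classical.Herm.mem_GU.mpr (Cfsg.Agent.Lib.Classical.Herm.mem_SU.mp Y.2)
  exact (mem_GU_iff hF _).mp hg

/-- The scalar of a central element has order dividing `gcd(n, q+1)`. -/
theorem center_scalar (hF : Fintype.card F = q ^ 2) {n : ℕ} (hn : 1 ≤ n) {Y : Cfsg.SU n F q}
    (hY : Y ∈ Subgroup.center (Cfsg.SU n F q)) :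
    ∃ c : F, ((Y : SpecialLinearGroup (Fin n) F) : Matrix (Fin n) (Fin n) F) = c • 1 ∧
      c ^ Nat.gcd n (q + 1) = 1 := by
  obtain ⟨c, hc⟩ := Cfsg.Agent.Lib.Classical.Herm.scalar_of_mem_center_SU hF hn hY
  refine ⟨c, hc, pow_gcd_eq_one.mpr ⟨?_, ?_⟩⟩
  · have := (Y : SpecialLinearGroup (Fin n) F).2
    rw [hc, det_smul, det_one, mul_one, Fintype.card_fin] at this
    exact this
  · have h := gu_rel hF Y
    rw [hc] at h
    have := congrFun₂ h ⟨0, hn⟩ ⟨0, hn⟩
    simpa [qHom, pow_succ, mul_comm] using this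

/-- Existence of an element of order `q^h + (-1)^h`. -/
theorem exists_half (p : ℕ) [Fact p.Prime] [CharP F p] (hF : Fintype.card F = q ^ 2) (hodd : Odd q)
    {n h : ℕ} (hn : n = h + h) (h0 : 0 < h) (hd : Nat.gcd n (q + 1) ∣ h) :
    ∃ g : Cfsg.PSU n F q, orderOf g = N q h := by
  classical
  have hq : 1 < q := by
    have h1 : 1 < Fintype.card F := Fintype.one_lt_card
    rw [hF] at h1
    by_contra hle
    interval_cases q <;> simp at h1
  have hn1 : 1 ≤ n := by omega
  haveI : NeZero h := ⟨by omega⟩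
  let K := FiniteField.Extension F p h
  haveI : Fintype K := Fintype.ofFinite K
  obtain ⟨ψ, hψ, hdet, -⟩ := GLn.HalfTorus.exists_singer (F := F) K h (FiniteField.finrank_extension F p h)
  set e := (T q n).natAbs with he
  obtain ⟨γ, hγ⟩ := IsCyclic.exists_ofOrder_eq_natCard (α := Kˣ)
  rw [Nat.card_units, FiniteField.natCard_extension, Nat.card_eq_fintype_card, hF, ← pow_mul,
    ← natAbs_T_two_mul hq.le h, two_mul h, ← hn, ← he] at hγ
  set a := γ ^ (q + 1) with ha
  have hao : orderOf a = e := by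
    rw [ha, orderOf_pow_of_dvd (by omega) (hγ ▸ dvd_mul_left _ _), hγ, Nat.mul_div_cancel _ (by omega)]
  set A : GL (Fin h) F := ψ a with hA
  have hAo : orderOf A = e := by rw [hA, orderOf_injective ψ hψ, hao]
  set ν : F := ((Units.map (Algebra.norm F : K →* F) a : Fˣ) : F) with hν
  have hdetA : (A : Matrix (Fin h) (Fin h) F).det = ν := congrArg Units.val (hdet a)
  have hνq : ν ^ q = ν := by
    have h1 : (Units.map (Algebra.norm F : K →* F) a) ^ (q - 1) = 1 := by
      have hc : Nat.card Fˣ = (q + 1) * (q - 1) := by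
        rw [Nat.card_units, Nat.card_eq_fintype_card, hF]
        have := Nat.sq_sub_sq q 1
        simpa using this
      rw [ha, map_pow, ← pow_mul, ← hc]
      exact pow_card_eq_one'
    have h2 : ν ^ (q - 1) = 1 := by rw [hν, ← Units.val_pow_eq_pow_val, h1, Units.val_one]
    calc ν ^ q = ν ^ (q - 1) * ν := by rw [← pow_succ, Nat.sub_add_cancel hq.le]
      _ = ν := by rw [h2, one_mul]
  -- the inverse conjugate transpose
  set Am : Matrix (Fin h) (Fin h) F := (A : Matrix (Fin h) (Fin h) F) with hAm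
  set Bs : Matrix (Fin h) (Fin h) F := (Am.map (qHom hF))ᵀ with hBs
  set B : Matrix (Fin h) (Fin h) F := (((A⁻¹ : GL (Fin h) F) : Matrix (Fin h) (Fin h) F).map (qHom hF))ᵀ with hB
  have hBsB : Bs * B = 1 := by
    rw [hBs, hB, ← Matrix.transpose_mul, ← Matrix.map_mul, hAm, Units.inv_mul,
      Matrix.map_one _ (map_zero _) (map_one _), Matrix.transpose_one]
  have hq2 : ∀ x : F, qHom hF (qHom hF x) = x := qHom_qHom hF
  have hBA : (B.map (qHom hF))ᵀ * Am = 1 := by
    have : (B.map (qHom hF))ᵀ = ((A⁻¹ : GL (Fin h) F) : Matrix (Fin h) (Fin h) F) := by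
      ext i j; exact hq2 _
    rw [this, hAm, Units.inv_mul]
  -- change of basis
  obtain ⟨g0, hg0⟩ := IsCyclic.exists_ofOrder_eq_natCard (α := Fˣ)
  rw [Nat.card_units, Nat.card_eq_fintype_card, hF] at hg0
  obtain ⟨k, hk⟩ := hodd
  set δ : F := (((g0 ^ k : Fˣ)) : F) with hδ
  have hδ1 : qHom hF δ * δ = -1 := by
    show δ ^ q * δ = -1
    rw [← pow_succ]
    have hsq : (δ ^ (q + 1)) ^ 2 = 1 := by
      rw [hδ, ← Units.val_pow_eq_pow_val, ← Units.val_pow_eq_pow_val, ← pow_mul, ← pow_mul,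
        show k * ((q + 1) * 2) = q ^ 2 - 1 by subst hk; ring_nf; omega, ← hg0, pow_orderOf_eq_one, Units.val_one]
    rcases sq_eq_one_iff.mp hsq with h1 | h1
    · exfalso
      rw [hδ, ← Units.val_pow_eq_pow_val, Units.val_eq_one, ← pow_mul] at h1
      have := Nat.le_of_dvd (Nat.mul_pos (by omega) (by omega)) (orderOf_dvd_of_pow_eq_one h1)
      rw [hg0] at this
      subst hk
      have h5 : k * (2 * k + 1 + 1) = 2 * (k * k) + 2 * k := by ring
      have h6 : (2 * k + 1) ^ 2 = 4 * (k * k) + 4 * k + 1 := by ring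
      rw [h5, h6] at this
      omega
    · exact h1
  have h2F : (2 : F) ≠ 0 := by
    intro h2
    have hp2 : p ∣ 2 := (CharP.cast_eq_zero_iff F p 2).mp (by exact_mod_cast h2)
    have hpe : p = 2 := (Nat.prime_dvd_prime_iff_eq Fact.out Nat.prime_two).mp hp2
    obtain ⟨f, -, hc⟩ := FiniteField.card F p
    rw [hF, hpe] at hc
    have : Even (q ^ 2) := hc ▸ (Nat.even_pow.mpr ⟨even_two, f.ne_zero⟩)
    rw [Nat.even_pow] at this
    exact absurd this.1 (Nat.not_even_iff_odd.mpr ⟨k, hk⟩)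
  have hδ0 : δ ≠ 0 := Units.ne_zero _
  set u : F := (2 : F)⁻¹ with hu
  set w : F := -δ * u with hw
  have hqu : qHom hF u = u := by rw [hu, map_inv₀, map_ofNat]
  have hqw : qHom hF w = -qHom hF δ * u := by rw [hw, map_mul, map_neg, hqu]
  have hu2 : u + u = 1 := by rw [hu]; field_simp; norm_num
  let P : Matrix (Fin h ⊕ Fin h) (Fin h ⊕ Fin h) F := fromBlocks 1 (u • 1) (δ • 1) (w • 1)
  let Pstar : Matrix (Fin h ⊕ Fin h) (Fin h ⊕ Fin h) F :=
    fromBlocks 1 (qHom hF δ • 1) (qHom hF u • 1) (qHom hF w • 1)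
  let J : Matrix (Fin h ⊕ Fin h) (Fin h ⊕ Fin h) F := fromBlocks 0 1 1 0
  have hPstar : (P.map (qHom hF))ᵀ = Pstar := by
    simp only [P, Pstar, Matrix.fromBlocks_map, Matrix.fromBlocks_transpose]
    congr 1 <;> ext i j <;> by_cases hij : i = j <;> simp [Matrix.one_apply, hij, Ne.symm]
  have hPJ : Pstar * P = J := by
    simp only [P, Pstar, J, Matrix.fromBlocks_multiply, smul_mul_assoc, mul_smul_comm, one_mul, mul_one, smul_smul]
    congr 1
    · rw [show δ * qHom hF δ = -1 by linear_combination hδ1, neg_one_smul, add_neg_cancel]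
    · rw [← add_smul]
      refine (congrArg (fun c : F => c • (1 : Matrix (Fin h) (Fin h) F)) ?_).trans (one_smul _ _)
      simp only [hqw, hqu, hw]
      linear_combination (-u) * hδ1 + hu2
    · rw [← add_smul]
      refine (congrArg (fun c : F => c • (1 : Matrix (Fin h) (Fin h) F)) ?_).trans (one_smul _ _)
      simp only [hqw, hqu]
      linear_combination (-u) * hδ1 + hu2
    · rw [← add_smul]
      refine (congrArg (fun c : F => c • (1 : Matrix (Fin h) (Fin h) F)) ?_).trans (zero_smul _ _)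
      simp only [hqw, hqu]
      rw [hw]
      linear_combination (u * u) * hδ1
  have hJJ : J * J = 1 := by simp [J, Matrix.fromBlocks_multiply, Matrix.fromBlocks_one]
  have hJP : J * Pstar * P = 1 := by rw [mul_assoc, hPJ, hJJ]
  set P' := J * Pstar with hP'
  have hPP' : P * P' = 1 := mul_eq_one_comm.mp hJP
  let D : Matrix (Fin h ⊕ Fin h) (Fin h ⊕ Fin h) F := fromBlocks Am 0 0 B
  have hDJ : (D.map (qHom hF))ᵀ * J * D = J := by
    simp only [D, J, Matrix.fromBlocks_map, Matrix.fromBlocks_transpose, Matrix.map_zero _ (map_zero _),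
      Matrix.transpose_zero, Matrix.fromBlocks_multiply, mul_zero, zero_mul, mul_one, add_zero, zero_add]
    congr 1 <;> simp [← hBs, hBsB, hBA]
  set X0 := P * D * P' with hX0
  have hX0u : (X0.map (qHom hF))ᵀ * X0 = 1 := by
    rw [hX0]
    simp only [Matrix.map_mul, Matrix.transpose_mul, hPstar]
    calc (P'.map (qHom hF))ᵀ * ((D.map (qHom hF))ᵀ * Pstar) * (P * D * P')
        = (P'.map (qHom hF))ᵀ * ((D.map (qHom hF))ᵀ * (Pstar * P) * D) * P' := by simp only [mul_assoc]
      _ = ((P.map (qHom hF)) * (P'.map (qHom hF)))ᵀ := by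
          rw [hPJ, hDJ, ← hPJ, Matrix.transpose_mul, hPstar]
          simp only [mul_assoc, hPP', mul_one]
      _ = 1 := by rw [← Matrix.map_mul, hPP', Matrix.map_one _ (map_zero _) (map_one _), Matrix.transpose_one]
  have hdet0 : X0.det = 1 := by
    have hPd : P.det * P'.det = 1 := by rw [← det_mul, hPP', det_one]
    have hBd : qHom hF Am.det * B.det = 1 := by
      have := congrArg Matrix.det hBsB
      rw [det_mul, det_one, hBs, det_transpose, ← RingHom.mapMatrix_apply, ← RingHom.map_det] at this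
      exact this
    rw [hX0, det_mul, det_mul, mul_right_comm, hPd, one_mul, det_fromBlocks_zero₁₂]
    rw [show qHom hF Am.det = Am.det from by rw [hdetA]; exact hνq] at hBd
    exact hBd
  subst hn
  let E := finSumFinEquiv (m := h) (n := h)
  let Φ := Matrix.reindexAlgEquiv F F E
  let X : SpecialLinearGroup (Fin (h + h)) F := ⟨Φ X0, by rw [Matrix.det_reindexAlgEquiv]; exact hdet0⟩
  have hXu : ((Φ X0).map (qHom hF))ᵀ * Φ X0 = 1 := by
    have : ((Φ X0).map (qHom hF))ᵀ = Φ ((X0.map (qHom hF))ᵀ) := by ext i j; rfl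
    rw [this, ← map_mul, hX0u, map_one]
  have hmem : X ∈ Cfsg.SU (h + h) F q := Cfsg.Agent.Lib.Classical.Herm.mem_SU.mpr
    (Cfsg.Agent.Lib.Classical.Herm.mem_GU.mp ((mem_GU_iff hF (SpecialLinearGroup.toGL X)).mpr hXu))
  let Y : Cfsg.SU (h + h) F q := ⟨X, hmem⟩
  set m := orderOf (QuotientGroup.mk Y : Cfsg.PSU (h + h) F q) with hm
  set d := Nat.gcd (h + h) (q + 1) with hd'
  have hcen : Y ^ m ∈ Subgroup.center (Cfsg.SU (h + h) F q) := by
    rw [← QuotientGroup.eq_one_iff, QuotientGroup.mk_pow, hm, pow_orderOf_eq_one]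
  obtain ⟨c, hc, hcd⟩ := center_scalar hF (by omega) hcen
  have hXmd : X0 ^ (m * d) = 1 := by
    apply Φ.injective
    rw [map_pow, map_one, pow_mul]
    have : (Φ X0) ^ m = c • 1 := by rw [← hc, mat_pow_coe]
    rw [this, _root_.smul_pow, hcd, one_pow, one_smul]
  have hDmd : D ^ (m * d) = 1 := by
    have hkey : ∀ j : ℕ, X0 ^ j = P * D ^ j * P' := by
      intro j
      induction j with
      | zero => rw [pow_zero, pow_zero, mul_one, hPP']
      | succ j ih =>
        rw [pow_succ, ih, hX0, pow_succ]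
        simp only [mul_assoc]
        rw [← mul_assoc P' P, hJP, one_mul]
    rw [hkey] at hXmd
    calc D ^ (m * d) = (P' * P) * D ^ (m * d) * (P' * P) := by rw [hJP, one_mul, mul_one]
      _ = P' * (P * D ^ (m * d) * P') * P := by simp only [mul_assoc]
      _ = 1 := by rw [hXmd, mul_one, hJP]
  have hemd : e ∣ m * d := by
    rw [← hAo]
    apply orderOf_dvd_of_pow_eq_one
    apply Units.ext
    rw [Units.val_pow_eq_pow_val, Units.val_one]
    have hblk : ∀ j : ℕ, D ^ j = fromBlocks (Am ^ j) 0 0 (B ^ j) := by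
      intro j
      induction j with
      | zero => rw [pow_zero, pow_zero, pow_zero, Matrix.fromBlocks_one]
      | succ j ih => rw [pow_succ, ih, pow_succ, pow_succ]; simp [D, Matrix.fromBlocks_multiply]
    rw [hblk, ← Matrix.fromBlocks_one, Matrix.fromBlocks_inj] at hDmd
    exact hDmd.1
  have hdiv : N q h ∣ m := by
    apply Nat.dvd_of_mul_dvd_mul_right (show 0 < d from Nat.gcd_pos_of_pos_left _ (by omega))
    refine (Nat.mul_dvd_mul_left _ ((dvd_T (Nat.gcd_dvd_right _ _) h).mpr hd)).trans ?_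
    rw [← T_two_natAbs, two_mul, ← he]
    exact hemd
  exact ⟨_, orderOf_pow_orderOf_div (orderOf_pos _).ne' hdiv⟩

theorem exists_prim {h : ℕ} (hq : 1 < q) (hodd : Odd q) (h2 : 2 ≤ h) :
    ∃ r : ℕ, r.Prime ∧ r ∣ N q h ∧ ¬ r ∣ q + 1 ∧ ¬ r ∣ q ∧
      orderOf ((-(q : ℤ) : ℤ) : ZMod r) = 2 * h := by
  set m := if Even h then 2 * h else h with hm
  have hm3 : 3 ≤ m := by
    rw [hm]; split_ifs with he
    · omega
    · obtain ⟨i, hi⟩ := Nat.not_even_iff_odd.mp he; omega
  obtain ⟨r, hr, hrd, hrmin⟩ := Zsigmondy.exists_primitive_prime q m hq (by omega)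
    (fun e => by rw [e.1] at hodd; exact absurd hodd (by decide)) (fun e => by omega)
  haveI := Fact.mk hr
  have hrq : ¬ r ∣ q := by
    intro hd
    have h1 := Nat.dvd_sub (dvd_pow hd (show m ≠ 0 by omega)) hrd
    rw [Nat.sub_sub_self (Nat.one_le_pow _ _ (by omega))] at h1
    exact hr.not_dvd_one h1
  have hkd : ∀ i, r ∣ q ^ i - 1 ↔ (q : ZMod r) ^ i = 1 := fun i => by
    rw [← ZMod.natCast_eq_zero_iff, Nat.cast_sub (Nat.one_le_pow _ _ (by omega)), Nat.cast_pow, Nat.cast_one,
      sub_eq_zero]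
  have hord : orderOf (q : ZMod r) = m := by
    rw [orderOf_eq_iff (by omega)]
    exact ⟨(hkd m).mp hrd, fun i hi hi0 h' => hrmin i hi0 hi ((hkd i).mpr h')⟩
  have hiff : ∀ i, (q : ZMod r) ^ i = 1 ↔ m ∣ i := fun i => by rw [← hord, orderOf_dvd_iff_pow_eq_one]
  have hr2 : (1 : ZMod r) ≠ -1 := by
    intro e
    have h2' : ((2 : ℕ) : ZMod r) = 0 := by push_cast; linear_combination e
    rw [ZMod.natCast_eq_zero_iff] at h2'
    have hr2 : r = 2 := (Nat.prime_dvd_prime_iff_eq hr Nat.prime_two).mp h2'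
    exact hrmin 1 one_pos (by omega) (by
      rw [hr2, pow_one]; obtain ⟨k, rfl⟩ := hodd; exact ⟨k, by omega⟩)
  have hqh : (-(q : ZMod r)) ^ h = -1 := by
    by_cases he : Even h
    · rw [he.neg_pow]
      have h1 : ((q : ZMod r) ^ h) ^ 2 = 1 := by
        rw [← pow_mul, hiff, hm, if_pos he, mul_comm]
      rcases sq_eq_one_iff.mp h1 with h1 | h1
      · rw [hiff, hm, if_pos he] at h1
        have := Nat.le_of_dvd (by omega) h1
        omega
      · exact h1
    · rw [(Nat.not_even_iff_odd.mp he).neg_pow, (hiff h).mpr (by rw [hm, if_neg he])]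
  refine ⟨r, hr, ?_, ?_, hrq, ?_⟩
  · rw [N, ← Int.natCast_dvd, ← ZMod.intCast_zmod_eq_zero_iff_dvd]
    push_cast
    rw [hqh, neg_add_cancel]
  · intro hd
    have h1 : (q : ZMod r) = -1 := by
      have := (ZMod.natCast_eq_zero_iff (q + 1) r).mpr hd
      push_cast at this
      linear_combination this
    have := Nat.le_of_dvd (by norm_num) ((hiff 2).mp (by rw [h1]; ring))
    omega
  · push_cast
    rw [orderOf_eq_iff (by omega)]
    refine ⟨by rw [mul_comm, pow_mul, hqh]; ring, fun i hi hi0 h' => ?_⟩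
    have h1 : (q : ZMod r) ^ (2 * i) = 1 := by
      rw [← (even_two_mul i).neg_pow, mul_comm, pow_mul, h', one_pow]
    rw [hiff, hm] at h1
    split_ifs at h1 with he
    · have : h ∣ i := Nat.dvd_of_mul_dvd_mul_left (by omega) h1
      obtain ⟨t, rfl⟩ := this
      rw [pow_mul, hqh] at h'
      rcases t with _ | _ | t
      · simp at hi0
      · rw [pow_one] at h'; exact hr2 h'.symm
      · nlinarith
    · have : h ∣ i :=
        ((Nat.coprime_two_right.mpr (Nat.not_even_iff_odd.mp he)).dvd_of_dvd_mul_left h1)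
      obtain ⟨t, rfl⟩ := this
      rw [pow_mul, hqh] at h'
      rcases t with _ | _ | t
      · simp at hi0
      · rw [pow_one] at h'; exact hr2 h'.symm
      · nlinarith

/-- No element of that order otherwise. -/
theorem no_half (p : ℕ) [Fact p.Prime] [CharP F p] (hF : Fintype.card F = q ^ 2) (hodd : Odd q)
    {n h : ℕ} (hn : n = h + h) (h2 : 2 ≤ h) {g : Cfsg.PSU n F q} (hg : orderOf g = N q h) :
    Nat.gcd n (q + 1) ∣ h := by
  classical
  have hq : 1 < q := by
    have h1 : 1 < Fintype.card F := Fintype.one_lt_card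
    rw [hF] at h1
    by_contra hle
    interval_cases q <;> simp at h1
  obtain ⟨r, hr, hrN, hr1, hrq, hord⟩ := exists_prim hq hodd h2
  haveI := Fact.mk hr
  set d := Nat.gcd n (q + 1) with hd
  have hdpos : 0 < d := Nat.gcd_pos_of_pos_left _ (by omega)
  obtain ⟨Y, rfl⟩ := QuotientGroup.mk_surjective g
  have hkill : ∀ j, N q h ∣ j → (((Y ^ (j * d) : Cfsg.SU n F q) : SpecialLinearGroup (Fin n) F) :
      Matrix (Fin n) (Fin n) F) = 1 := by
    intro j hj
    have hc : Y ^ j ∈ Subgroup.center (Cfsg.SU n F q) := by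
      rw [← QuotientGroup.eq_one_iff, QuotientGroup.mk_pow, ← orderOf_dvd_iff_pow_eq_one, hg]; exact hj
    obtain ⟨c, hc1, hc2⟩ := center_scalar hF (by omega) hc
    rw [pow_mul, mat_pow_coe, hc1, _root_.smul_pow, hc2, one_pow, one_smul]
  obtain ⟨p', k, hp', hcp', -, hqp⟩ := q_eq_pow hF
  obtain rfl : p = p' := CharP.eq F ‹CharP F p› hcp'
  let L := AlgebraicClosure F
  haveI : CharP L p := charP_of_injective_algebraMap (algebraMap F L).injective p
  haveI : Nonempty (Fin n) := ⟨⟨0, by omega⟩⟩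
  set Ym : Matrix (Fin n) (Fin n) F := ((Y : SpecialLinearGroup (Fin n) F) : Matrix (Fin n) (Fin n) F) with hYm
  set M : Matrix (Fin n) (Fin n) L := Ym.map (algebraMap F L) with hM
  have hMdet : M.det = 1 := by
    rw [hM, ← RingHom.mapMatrix_apply, ← RingHom.map_det, hYm, (Y : SpecialLinearGroup (Fin n) F).2, map_one]
  let fr : L →+* L := iterateFrobenius L p k
  have hfr : ∀ x, fr x = x ^ q := fun x => by rw [hqp]; exact iterateFrobenius_def p k x
  have hMu : (M.map fr)ᵀ * M = 1 := by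
    have h1 := congrArg (fun Z : Matrix (Fin n) (Fin n) F => Z.map (algebraMap F L)) (gu_rel hF Y)
    rw [Matrix.map_mul, Matrix.map_one _ (map_zero _) (map_one _)] at h1
    have : (M.map fr)ᵀ = ((Ym.map (qHom hF))ᵀ).map (algebraMap F L) := by
      ext i j
      show fr (algebraMap F L (Ym j i)) = algebraMap F L (Ym j i ^ q)
      rw [hfr, map_pow]
    rw [this]
    exact h1
  -- the power killing an eigenvalue
  set t := N q h / r * d with ht
  have hRr : M ^ (t * r) = 1 := by
    have h1 := hkill (N q h / r * r) (by rw [Nat.div_mul_cancel hrN])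
    rw [show N q h / r * r * d = t * r by rw [ht]; ring, mat_pow_coe, ← hYm] at h1
    rw [hM, ← RingHom.mapMatrix_apply, ← map_pow, h1, map_one]
  have hR1 : M ^ t ≠ 1 := by
    intro e
    have h1 : Ym ^ t = 1 := by
      apply Matrix.map_injective (algebraMap F L).injective
      show (Ym ^ t).map (algebraMap F L) = (1 : Matrix (Fin n) (Fin n) F).map (algebraMap F L)
      rw [← RingHom.mapMatrix_apply, map_pow, RingHom.mapMatrix_apply, ← hM, e,
        Matrix.map_one _ (map_zero _) (map_one _)]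
    have h2' : (QuotientGroup.mk Y : Cfsg.PSU n F q) ^ t = 1 := by
      rw [← QuotientGroup.mk_pow, QuotientGroup.eq_one_iff]
      exact mem_center_of_scalar _ 1 (by rw [mat_pow_coe, ← hYm, h1, one_smul])
    have h3 := orderOf_dvd_of_pow_eq_one h2'
    rw [hg, ht] at h3
    obtain ⟨s, hs⟩ := hrN
    rw [hs, Nat.mul_div_cancel_left _ hr.pos, mul_comm r s] at h3
    have hs0 : 0 < s := by
      rcases Nat.eq_zero_or_pos s with rfl | hs0
      · rw [mul_zero] at hs
        exact absurd (hg ▸ orderOf_pos _) (by omega)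
      · exact hs0
    exact hr1 ((Nat.dvd_of_mul_dvd_mul_left hs0 h3).trans (Nat.gcd_dvd_right _ _))
  have hrp : r ≠ p := by
    intro e
    apply hrq
    rw [hqp, e]
    refine dvd_pow_self p ?_
    rintro rfl
    rw [pow_zero] at hqp
    omega
  obtain ⟨μ, hμ1, hμr, hμs⟩ : ∃ μ : L, μ ≠ 1 ∧ μ ^ r = 1 ∧ μ ∈ spectrum L (M ^ t) := by
    have hint : IsIntegral L (M ^ t) := Algebra.IsIntegral.isIntegral _
    have hdvd : minpoly L (M ^ t) ∣ X ^ r - 1 := minpoly.dvd L _ (by
      simp [← pow_mul, hRr])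
    have hsep : (X ^ r - 1 : L[X]).Separable := X_pow_sub_one_separable_iff.mpr (by
      rw [Ne, CharP.cast_eq_zero_iff L p]
      exact fun hd => hrp ((Nat.prime_dvd_prime_iff_eq Fact.out hr).mp hd).symm)
    by_contra hcon
    push Not at hcon
    apply hR1
    have hall : ∀ μ ∈ (minpoly L (M ^ t)).roots, μ = 1 := by
      intro μ hμ
      have hroot := (mem_roots (minpoly.ne_zero hint)).mp hμ
      have hμr : μ ^ r = 1 := by
        have := hroot.dvd hdvd
        simpa [IsRoot, sub_eq_zero] using this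
      by_contra hne
      exact hcon μ hne hμr (Matrix.mem_spectrum_iff_isRoot_charpoly.mpr
        (hroot.dvd (Matrix.minpoly_dvd_charpoly _)))
    have hsplit : (minpoly L (M ^ t)).Splits := IsAlgClosed.splits _
    have hnd := nodup_roots (hsep.of_dvd hdvd)
    have hcard : (minpoly L (M ^ t)).roots.card = (minpoly L (M ^ t)).natDegree :=
      (Polynomial.splits_iff_card_roots.mp hsplit)
    have hdeg : (minpoly L (M ^ t)).natDegree ≤ 1 := by
      rw [← hcard]
      by_contra hlt
      push Not at hlt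
      obtain ⟨s, hs⟩ : ∃ s, (minpoly L (M ^ t)).roots = Multiset.replicate (s + 2) (1 : L) :=
        ⟨(minpoly L (M ^ t)).roots.card - 2, Multiset.eq_replicate.mpr ⟨by omega, hall⟩⟩
      rw [hs, Multiset.nodup_iff_count_le_one] at hnd
      have := hnd 1
      rw [Multiset.count_replicate_self] at this
      omega
    have hpos := minpoly.natDegree_pos hint
    obtain ⟨c, hc⟩ : ∃ c, minpoly L (M ^ t) = X + C c :=
      ⟨(minpoly L (M ^ t)).coeff 0, (minpoly.monic hint).eq_X_add_C (by omega)⟩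
    have h1 : (-c : L) = 1 := hall _ (by rw [mem_roots (minpoly.ne_zero hint), hc]; simp)
    have := minpoly.aeval L (M ^ t)
    rw [hc, map_add, aeval_X, aeval_C, show c = -1 by rw [← h1, neg_neg], map_neg, map_one, add_neg_eq_zero] at this
    exact this
  obtain ⟨a, has, hat⟩ : ∃ a ∈ spectrum L M, a ^ t = μ := by
    have := spectrum.map_pow_of_pos M (n := t) (𝕜 := L) (by
      rw [ht]; exact Nat.mul_pos (Nat.div_pos (Nat.le_of_dvd (hg ▸ orderOf_pos _) hrN) hr.pos) hdpos)
    rw [this] at hμs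
    exact hμs
  rw [Matrix.mem_spectrum_iff_isRoot_charpoly] at has
  have ha0 : a ≠ 0 := by
    rintro rfl
    rw [IsRoot.def, Matrix.eval_charpoly, map_zero, zero_sub, Matrix.det_neg, hMdet, mul_one] at has
    exact pow_ne_zero _ (by norm_num) has
  -- closure of the eigenvalues
  have hclosed : ∀ b : Lˣ, M.charpoly.IsRoot (b : L) → M.charpoly.IsRoot (((b ^ q)⁻¹ : Lˣ) : L) := by
    intro b hb
    rw [IsRoot.def, Matrix.eval_charpoly] at hb ⊢
    have h1 : (Matrix.scalar (Fin n) ((b : L) ^ q) - (M.map fr)ᵀ).det = 0 := by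
      have := congrArg fr hb
      rw [RingHom.map_det, map_zero, map_sub, RingHom.mapMatrix_apply, RingHom.mapMatrix_apply] at this
      rw [← Matrix.det_transpose]
      convert this using 2
      rw [Matrix.transpose_sub, Matrix.transpose_transpose]
      congr 1
      ext i j
      by_cases hij : i = j <;> simp [hij, hfr, Ne.symm, zero_pow (show q ≠ 0 by omega)]
    have h2' : (Matrix.scalar (Fin n) ((b : L) ^ q) * M - 1).det = 0 := by
      rw [← hMu, ← sub_mul, det_mul, h1, zero_mul]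
    have e : Matrix.scalar (Fin n) ((b : L) ^ q) * M - 1 =
        -(Matrix.scalar (Fin n) ((b : L) ^ q)) * (Matrix.scalar (Fin n) (((b ^ q)⁻¹ : Lˣ) : L) - M) := by
      rw [neg_mul, mul_sub, ← map_mul, ← Units.val_pow_eq_pow_val, Units.mul_inv, map_one, neg_sub]
    rw [e, det_mul] at h2'
    refine (mul_eq_zero.mp h2').resolve_left ?_
    simp [Matrix.det_neg]
  set au : Lˣ := Units.mk0 a ha0 with hau
  let A : ℕ → Lˣ := fun i => au ^ ((-(q : ℤ)) ^ i)
  have hA0 : A 0 = au := by simp [A]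
  have hAs : ∀ i, A (i + 1) = ((A i) ^ q)⁻¹ := fun i => by
    simp only [A]
    rw [pow_succ, _root_.zpow_mul, _root_.zpow_neg, zpow_natCast]
  have hroot : ∀ i, M.charpoly.IsRoot ((A i : Lˣ) : L) := by
    intro i
    induction i with
    | zero => rw [hA0]; exact has
    | succ i ih => rw [hAs]; exact hclosed _ ih
  set lam : Lˣ := au ^ (t : ℤ) with hlamdef
  have hlam : orderOf lam = r := by
    refine orderOf_eq_prime ?_ ?_
    · apply Units.ext
      rw [hlamdef, zpow_natCast, Units.val_pow_eq_pow_val, Units.val_pow_eq_pow_val, hau, Units.val_mk0, hat, hμr,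
        Units.val_one]
    · intro e
      apply hμ1
      have := congrArg Units.val e
      rwa [hlamdef, zpow_natCast, Units.val_pow_eq_pow_val, hau, Units.val_mk0, hat, Units.val_one] at this
  have hinj : ∀ i j, A i = A j → i ≡ j [MOD 2 * h] := by
    intro i j e
    have e' := congrArg (fun x : Lˣ => x ^ (t : ℤ)) e
    simp only [A] at e'
    rw [← _root_.zpow_mul, ← _root_.zpow_mul, mul_comm ((-(q : ℤ)) ^ i), mul_comm ((-(q : ℤ)) ^ j), _root_.zpow_mul,
      _root_.zpow_mul, ← hlamdef, zpow_eq_zpow_iff_modEq, hlam, ← ZMod.intCast_eq_intCast_iff] at e'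
    rw [← hord]
    have hu : IsOfFinOrder ((-(q : ℤ) : ℤ) : ZMod r) := orderOf_pos_iff.mp (by omega)
    rw [hu.pow_eq_pow_iff_modEq.symm]
    simpa using e'
  let v : Fin n → L := fun i => ((A i.val : Lˣ) : L)
  have hv : Function.Injective v := by
    intro i j e
    have := hinj _ _ (Units.ext e)
    unfold Nat.ModEq at this
    rw [Nat.mod_eq_of_lt (by omega), Nat.mod_eq_of_lt (by omega)] at this
    exact Fin.ext this
  have hroots : M.charpoly.roots = Finset.univ.val.map v := by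
    refine (Multiset.eq_of_le_of_card_le ?_ ?_).symm
    · rw [Multiset.le_iff_subset (Finset.univ.nodup.map hv)]
      intro x hx
      obtain ⟨i, -, rfl⟩ := Multiset.mem_map.mp hx
      rw [mem_roots (Matrix.charpoly_monic M).ne_zero]
      exact hroot _
    · rw [Multiset.card_map]
      have := Polynomial.card_roots' M.charpoly
      rw [Matrix.charpoly_natDegree_eq_dim, Fintype.card_fin] at this
      simpa using this
  have hcp : M.charpoly = ∏ i, (X - C (v i)) := by
    rw [(IsAlgClosed.splits M.charpoly).eq_prod_roots_of_monic (Matrix.charpoly_monic M), hroots, Multiset.map_map]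
    rfl
  have hprod : au ^ T q n = 1 := by
    apply Units.ext
    have h1 := Matrix.det_eq_prod_roots_charpoly M
    rw [hMdet, hroots] at h1
    rw [T, Units.val_one, h1]
    change _ = ∏ i, v i
    rw [← Fin.sum_univ_eq_sum_range fun i : ℕ => (-(q : ℤ)) ^ i]
    have : ∀ s : Finset (Fin n), au ^ (∑ i ∈ s, (-(q : ℤ)) ^ (i : ℕ)) = ∏ i ∈ s, A i.val := by
      intro s
      induction s using Finset.induction_on with
      | empty => simp
      | insert a s ha ih => rw [Finset.sum_insert ha, Finset.prod_insert ha, _root_.zpow_add, ih]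
    rw [this, Units.coe_prod]
  set e := (T q n).natAbs with he
  have hae : au ^ e = 1 := pow_natAbs_eq_one.mpr hprod
  have hde : d ∣ e := by rw [he, dvd_T (Nat.gcd_dvd_right _ _)]; exact Nat.gcd_dvd_left _ _
  obtain ⟨e', he'⟩ := hde
  have hfix : ∀ i, (A i) ^ e' = au ^ e' := by
    intro i
    have hz : (au ^ e') ^ (q + 1) = 1 := by
      obtain ⟨s, hs⟩ := Nat.gcd_dvd_right n (q + 1)
      rw [← hd] at hs
      rw [hs, ← pow_mul, ← mul_assoc, mul_comm e' d, ← he', pow_mul, hae, one_pow]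
    induction i with
    | zero => rw [hA0]
    | succ i ih =>
      rw [hAs, inv_pow, pow_right_comm, ih]
      exact inv_eq_of_mul_eq_one_left (by rw [← pow_succ']; exact hz)
  have hz : M ^ e' = Matrix.scalar (Fin n) ((au ^ e' : Lˣ) : L) := by
    have hdvd : M.charpoly ∣ X ^ e' - C ((au ^ e' : Lˣ) : L) := by
      rw [hcp]
      refine Finset.prod_dvd_of_coprime (fun i _ j _ hij => pairwise_coprime_X_sub_C hv hij) fun i _ => ?_
      rw [dvd_iff_isRoot]
      show Polynomial.eval (v i) _ = 0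
      rw [eval_sub, eval_pow, eval_X, eval_C, sub_eq_zero, ← hfix i.val, Units.val_pow_eq_pow_val]
    obtain ⟨c, hc⟩ := hdvd
    have := congrArg (aeval M) hc
    rw [map_mul, Matrix.aeval_self_charpoly, zero_mul, map_sub, map_pow, aeval_X, aeval_C, sub_eq_zero] at this
    exact this
  have hcen : Y ^ e' ∈ Subgroup.center (Cfsg.SU n F q) := by
    have hYe : (Ym ^ e').map (algebraMap F L) = Matrix.scalar (Fin n) ((au ^ e' : Lˣ) : L) := by
      rw [← hz, hM, ← RingHom.mapMatrix_apply, map_pow]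
      rfl
    refine mem_center_of_scalar _ ((Ym ^ e') (Classical.arbitrary _) (Classical.arbitrary _)) ?_
    rw [mat_pow_coe, ← hYm]
    apply Matrix.map_injective (algebraMap F L).injective
    dsimp only
    refine Matrix.ext fun i j => ?_
    have hij := congrFun₂ hYe i j
    have h00 := congrFun₂ hYe (Classical.arbitrary (Fin n)) (Classical.arbitrary (Fin n))
    rw [Matrix.map_apply] at hij h00 ⊢
    rw [hij, Matrix.map_apply, Matrix.smul_apply, smul_eq_mul, map_mul, h00]
    by_cases hh : i = j <;> simp [Matrix.one_apply, hh]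
  have hdiv : N q h ∣ e' := by
    rw [← hg]
    apply orderOf_dvd_of_pow_eq_one
    rw [← QuotientGroup.mk_pow, QuotientGroup.eq_one_iff]
    exact hcen
  have h6 : N q h * d ∣ N q h * (T q h).natAbs := by
    rw [← T_two_natAbs, two_mul, ← hn, ← he, he', mul_comm d e']
    exact Nat.mul_dvd_mul_right hdiv d
  exact (dvd_T (Nat.gcd_dvd_right _ _) h).mp (Nat.dvd_of_mul_dvd_mul_left (hg ▸ orderOf_pos _) h6)

end Cfsg.Agent.Lib.UnitaryHalf
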